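import Mathlib.Algebra.Module.Basic
import Mathlib.GroupTheory.Index
import Mathlib.Algebra.Group.Subgroup.Finite
import Mathlib.GroupTheory.Coset.Card
import Mathlib.Tactic.NoncommRing
import Mathlib.Tactic.LinearCombination
import Mathlib.Tactic.Abel
import Mathlib.Tactic.Ring

/-! Ring-theoretic part of the proof of S1935 (2-subnormal quadratic offenders). -/

set_option autoImplicit false

namespace Cfsg.Lib.Q2S

/-- counting lemma: an additive map on `A × S` whose kernel injects into `S` has image of size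
at least `|A|`. -/
theorem cnt {A S M : Type*} [AddCommGroup A] [AddCommGroup S] [AddCommGroup M] [Finite A]
    [Finite S] (φ : A × S →+ M) (ψ : φ.ker → S) (hψ : Function.Injective ψ) :
    Nat.card A ≤ Nat.card φ.range := by
  have h1 : Nat.card φ.ker ≤ Nat.card S := Nat.card_le_card_of_injective ψ hψ
  have h2 : Nat.card φ.ker * φ.ker.index = Nat.card (A × S) := φ.ker.card_mul_index
  rw [AddSubgroup.index_ker, Nat.card_prod] at h2
  have h3 : 0 < Nat.card S := Nat.card_pos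
  have h4 : Nat.card S * Nat.card A ≤ Nat.card S * Nat.card φ.range := by
    calc Nat.card S * Nat.card A = Nat.card φ.ker * Nat.card φ.range := by rw [h2, mul_comm]
      _ ≤ _ := Nat.mul_le_mul_right _ h1
  exact Nat.le_of_mul_le_mul_left h4 h3

section ring
variable {R : Type*} [Ring R]

theorem half {k : ℕ} (hp : ((2 * k + 1 : ℕ) : R) = 0) {M : Type*} [AddCommGroup M] [Module R M]
    (T : M) : (2 * k + 1) • T = 0 := by
  rw [← Nat.cast_smul_eq_nsmul R, hp, zero_smul]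

theorem eq_zero_of_two {k : ℕ} (hp : ((2 * k + 1 : ℕ) : R) = 0) (T : R) (h : T + T = 0) :
    T = 0 := by
  have h1 := half hp T
  have h2 : (2 * k + 1) • T = k • (T + T) + T := by
    rw [add_smul, one_smul, mul_comm, mul_smul, two_smul]
  rw [h2, h, smul_zero, zero_add] at h1
  exact h1

/-- the factorization identity -/
theorem fac_ring {k : ℕ} (hp : ((2 * k + 1 : ℕ) : R) = 0) (a0 a1 a2 d01 d02 d12 : R)
    (s0 : a0 * a0 = 0) (s1 : a1 * a1 = 0) (s2 : a2 * a2 = 0)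
    (t01 : a0 * a1 * a0 = 0) (t02 : a0 * a2 * a0 = 0) (t10 : a1 * a0 * a1 = 0)
    (t12 : a1 * a2 * a1 = 0) (t20 : a2 * a0 * a2 = 0) (t21 : a2 * a1 * a2 = 0)
    (e01 : d01 + d01 = -(a0 * a1 - a1 * a0)) (e02 : d02 + d02 = -(a0 * a2 - a2 * a0))
    (e12 : d12 + d12 = -(a1 * a2 - a2 * a1))
    (z1 : d01 * a1 = 0) (z2 : d01 * d12 = 0) (z3 : d02 * d12 = 0) (z4 : d02 * a2 = 0)
    (z5 : d12 * a2 = 0) (z6 : d02 * a1 * a2 = 0)
    (hg : (a0 + a1 + a2) * (a0 + a1 + a2) = 0) :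
    (1 + (a0 + d01 + d02)) * (1 + (a1 + d12)) * (1 + a2) = 1 + (a0 + a1 + a2) := by
  have hS : a0 * a1 + a1 * a0 + a0 * a2 + a2 * a0 + a1 * a2 + a2 * a1 = 0 := by
    linear_combination (norm := noncomm_ring) hg - s0 - s1 - s2
  have l0 : a0 * a1 * a2 + a0 * a2 * a1 = 0 := by
    linear_combination (norm := noncomm_ring) a0 * hS - s0 * a1 - s0 * a2 - t01 - t02
  have r1 : a0 * a2 * a1 + a2 * a0 * a1 = 0 := by
    linear_combination (norm := noncomm_ring) hS * a1 - a0 * s1 - a2 * s1 - t10 - t12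
  have r2 : a0 * a1 * a2 + a1 * a0 * a2 = 0 := by
    linear_combination (norm := noncomm_ring) hS * a2 - a0 * s2 - a1 * s2 - t20 - t21
  have hT : (1 + (a0 + d01 + d02)) * (1 + (a1 + d12)) * (1 + a2) - (1 + (a0 + a1 + a2)) =
      d01 + d02 + d12 + a0 * a1 + a0 * d12 + d02 * a1 + a0 * a2 + d01 * a2 + a1 * a2
        + a0 * a1 * a2 := by
    linear_combination (norm := noncomm_ring) z1 + z2 + z3 + z4 + z5 + z1 * a2 + z6
      + a0 * z5 + d01 * z5 + d02 * z5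
  rw [← sub_eq_zero, hT]
  apply eq_zero_of_two hp
  linear_combination (norm := noncomm_ring) e01 + e02 + e12 + a0 * e12 + e02 * a1 + e01 * a2
    + hS + r1 + r2 - l0

/-- the limit space -/
def SS (𝔞 : AddSubgroup R) (β : R) : AddSubgroup (R × R) where
  carrier := {s | s.1 ∈ 𝔞 ∧ s.2 ∈ 𝔞 ∧ (s.2 * β - β * s.2) - β * s.1 * β ∈ 𝔞}
  zero_mem' := ⟨𝔞.zero_mem, 𝔞.zero_mem, by simp⟩
  add_mem' := by
    rintro s t ⟨h1, h2, h3⟩ ⟨k1, k2, k3⟩
    refine ⟨𝔞.add_mem h1 k1, 𝔞.add_mem h2 k2, ?_⟩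
    convert 𝔞.add_mem h3 k3 using 1
    simp only [Prod.fst_add, Prod.snd_add]
    noncomm_ring
  neg_mem' := by
    rintro s ⟨h1, h2, h3⟩
    refine ⟨𝔞.neg_mem h1, 𝔞.neg_mem h2, ?_⟩
    convert 𝔞.neg_mem h3 using 1
    simp only [Prod.fst_neg, Prod.snd_neg]
    noncomm_ring

def phi (𝔞 : AddSubgroup R) (β : R) : 𝔞 × SS 𝔞 β →+ R where
  toFun s := s.2.1.2 + (s.2.1.1 * β - β * s.2.1.1) - β * s.1.1 * β
  map_zero' := by simp
  map_add' s t := by
    simp only [Prod.fst_add, Prod.snd_add, AddSubgroup.coe_add]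
    noncomm_ring

def LL (𝔞 : AddSubgroup R) (β : R) : AddSubgroup R := (phi 𝔞 β).range

theorem mem_LL {𝔞 : AddSubgroup R} {β γ : R} : γ ∈ LL 𝔞 β ↔ ∃ a ∈ 𝔞, ∃ x ∈ 𝔞, ∃ y ∈ 𝔞,
    (y * β - β * y) - β * x * β ∈ 𝔞 ∧ γ = y + (x * β - β * x) - β * a * β := by
  constructor
  · rintro ⟨⟨⟨a, ha⟩, ⟨⟨x, y⟩, hx, hy, h⟩⟩, rfl⟩
    exact ⟨a, ha, x, hx, y, hy, h, rfl⟩
  · rintro ⟨a, ha, x, hx, y, hy, h, rfl⟩
    exact ⟨⟨⟨a, ha⟩, ⟨⟨x, y⟩, hx, hy, h⟩⟩, rfl⟩

theorem card_LL [Finite R] (𝔞 : AddSubgroup R) (β : R) : Nat.card 𝔞 ≤ Nat.card (LL 𝔞 β) := by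
  refine cnt (phi 𝔞 β) (fun s => ⟨(s.1.1.1, s.1.2.1.1), s.1.1.2, s.1.2.2.1, ?_⟩) ?_
  · have h : s.1.2.1.2 + (s.1.2.1.1 * β - β * s.1.2.1.1) - β * s.1.1.1 * β = 0 := s.2
    have h2 := 𝔞.neg_mem s.1.2.2.2.1
    convert h2 using 1
    linear_combination (norm := noncomm_ring) h
  · rintro ⟨⟨⟨a, ha⟩, ⟨⟨x, y⟩, hs⟩⟩, h⟩ ⟨⟨⟨a', ha'⟩, ⟨⟨x', y'⟩, hs'⟩⟩, h'⟩ he
    have h1 : y + (x * β - β * x) - β * a * β = 0 := h
    have h2 : y' + (x' * β - β * x') - β * a' * β = 0 := h'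
    simp only [Subtype.mk.injEq, Prod.mk.injEq] at he ⊢
    obtain ⟨rfl, rfl⟩ := he
    refine ⟨rfl, rfl, ?_⟩
    linear_combination (norm := noncomm_ring) h1 - h2

theorem LL_sq {𝔞 : AddSubgroup R} {β : R} (hq : ∀ x ∈ 𝔞, ∀ y ∈ 𝔞, x * y = 0) (hb : β * β = 0) :
    ∀ x ∈ LL 𝔞 β, ∀ y ∈ LL 𝔞 β, x * y = 0 := by
  intro γ hγ γ' hγ'
  obtain ⟨a, ha, x, hx, y, hy, h, rfl⟩ := mem_LL.1 hγ
  obtain ⟨a', ha', x', hx', y', hy', h', rfl⟩ := mem_LL.1 hγ'
  have l : ∀ z ∈ 𝔞, y * β * z = β * x * β * z := fun z hz => by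
    linear_combination (norm := noncomm_ring) hq _ h z hz + β * hq y hy z hz
  have r : ∀ z ∈ 𝔞, z * β * y' = -(z * β * x' * β) := fun z hz => by
    linear_combination (norm := noncomm_ring) - hq z hz _ h' + hq z hz y' hy' * β
  linear_combination (norm := noncomm_ring) hq y hy y' hy' + hq y hy x' hx' * β
    - β * hq x hx y' hy' - β * hq x hx x' hx' * β - l x' hx' - l a' ha' * β + r x hx
    - β * r a ha - x * hb * x' - x * hb * a' * β + β * a * hb * x' + β * a * hb * a' * β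

/-- common kernel -/
def kr (V : Type*) [AddCommGroup V] [Module R V] (𝔞 : AddSubgroup R) : AddSubgroup V where
  carrier := {v | ∀ x ∈ 𝔞, x • v = 0}
  zero_mem' := fun x _ => smul_zero x
  add_mem' := fun {v w} hv hw x hx => by rw [smul_add, hv x hx, hw x hx, add_zero]
  neg_mem' := fun {v} hv x hx => by rw [smul_neg, hv x hx, neg_zero]

theorem card_kr (V : Type*) [AddCommGroup V] [Module R V] [Finite V] {𝔞 : AddSubgroup R} {β : R}
    (hb : β * β = 0) : Nat.card (kr V 𝔞) ≤ Nat.card (kr V (LL 𝔞 β)) := by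
  let S : AddSubgroup V := kr V 𝔞 ⊓ (kr V 𝔞).comap (DistribSMul.toAddMonoidHom V β)
  let φ : kr V 𝔞 × S →+ V :=
    { toFun := fun s => β • s.1.1 + s.2.1
      map_zero' := by simp
      map_add' := fun s t => by
        simp only [Prod.fst_add, Prod.snd_add, AddSubgroup.coe_add, smul_add]
        abel }
  have h1 : Nat.card (kr V 𝔞) ≤ Nat.card φ.range := by
    refine cnt φ (fun s => ⟨s.1.1.1, s.1.1.2, ?_⟩) ?_
    · have h : β • s.1.1.1 + s.1.2.1 = 0 := s.2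
      show β • s.1.1.1 ∈ kr V 𝔞
      rw [eq_neg_of_add_eq_zero_left h]
      exact (kr V 𝔞).neg_mem s.1.2.2.1
    · rintro ⟨⟨⟨w, hw⟩, ⟨u, hu⟩⟩, h⟩ ⟨⟨⟨w', hw'⟩, ⟨u', hu'⟩⟩, h'⟩ he
      have h1 : β • w + u = 0 := h
      have h2 : β • w' + u' = 0 := h'
      have he' : w = w' := congrArg Subtype.val he
      subst he'
      have : u = u' := add_left_cancel (h1.trans h2.symm)
      subst this
      rfl
  refine h1.trans (AddSubgroup.card_le_of_le ?_)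
  rintro _ ⟨⟨⟨w, hw⟩, ⟨u, hu, hu'⟩⟩, rfl⟩ γ hγ
  obtain ⟨a, ha, x, hx, y, hy, h, rfl⟩ := mem_LL.1 hγ
  have hu2 : β • u ∈ kr V 𝔞 := hu'
  show (y + (x * β - β * x) - β * a * β) • (β • w + u) = 0
  have e1 : (y + (x * β - β * x) - β * a * β) * β =
      ((y * β - β * y) - β * x * β) + β * y := by
    linear_combination (norm := noncomm_ring) x * hb - β * a * hb
  rw [smul_add, ← mul_smul, e1, add_smul, hw _ h, mul_smul, hw y hy, smul_zero, sub_smul,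
    add_smul, sub_smul, hu y hy, mul_smul, hu2 x hx, mul_smul, hu x hx, mul_smul, mul_smul,
    hu2 a ha]
  simp

end ring

end Cfsg.Lib.Q2S
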