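import Cfsg.Agent.Lib.Q2S.A
import Mathlib.GroupTheory.Commutator.Basic
import Mathlib.GroupTheory.Nilpotent
import Mathlib.Tactic.Group

/-! Group-theoretic part of the proof of S1935: quadratic subgroups and the factorization. -/

set_option autoImplicit false

namespace Cfsg.Lib.Q2S

open scoped commutatorElement

variable {G R : Type*} [Group G] [Ring R] (ρ : G →* R)

def lam (g : G) : R := ρ g - 1

def Q (A : Subgroup G) : Prop := ∀ a ∈ A, ∀ a' ∈ A, lam ρ a * lam ρ a' = 0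

variable {ρ}

theorem rho_eq (g : G) : ρ g = 1 + lam ρ g := by simp [lam]

theorem lam_one : lam ρ 1 = 0 := by simp [lam]

theorem lam_mul (g h : G) : lam ρ (g * h) = lam ρ g + lam ρ h + lam ρ g * lam ρ h := by
  simp only [lam, map_mul]; noncomm_ring

theorem lam_mul' {g h : G} (e : lam ρ g * lam ρ h = 0) : lam ρ (g * h) = lam ρ g + lam ρ h := by
  rw [lam_mul, e, add_zero]

theorem lam_inv {g : G} (e : lam ρ g * lam ρ g = 0) : lam ρ g⁻¹ = -lam ρ g := by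
  have h1 : ρ g⁻¹ * ρ g = 1 := by rw [← map_mul, inv_mul_cancel, map_one]
  rw [rho_eq g] at h1
  have h2 : ρ g⁻¹ = 1 - lam ρ g := by
    linear_combination (norm := noncomm_ring) h1 * (1 - lam ρ g) + ρ g⁻¹ * e
  rw [lam, h2]; abel

theorem lam_pow {A : Subgroup G} (hq : Q ρ A) {a : G} (ha : a ∈ A) (n : ℕ) :
    lam ρ (a ^ n) = n • lam ρ a := by
  induction n with
  | zero => simp [lam_one]
  | succ n ih => rw [pow_succ, lam_mul' (hq _ (A.pow_mem ha n) _ ha), ih, succ_nsmul]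

theorem lam_inj (hρ : Function.Injective ρ) {g h : G} (e : lam ρ g = lam ρ h) : g = h := by
  apply hρ; rw [rho_eq g, rho_eq h, e]

theorem lam_cj1 {b : G} (e : lam ρ b * lam ρ b = 0) (g : G) : lam ρ (b⁻¹ * g * b) =
    lam ρ g + (lam ρ g * lam ρ b - lam ρ b * lam ρ g) - lam ρ b * lam ρ g * lam ρ b := by
  rw [lam_mul, lam_mul, lam_inv e]
  linear_combination (norm := noncomm_ring) - e

theorem lam_cj2 {b : G} (e : lam ρ b * lam ρ b = 0) (g : G) : lam ρ (b * g * b⁻¹) =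
    lam ρ g - (lam ρ g * lam ρ b - lam ρ b * lam ρ g) - lam ρ b * lam ρ g * lam ρ b := by
  rw [lam_mul, lam_mul, lam_inv e]
  linear_combination (norm := noncomm_ring) - e

theorem lam_conj (h g : G) : lam ρ (h * g * h⁻¹) = ρ h * lam ρ g * ρ h⁻¹ := by
  have h1 : ρ h * ρ h⁻¹ = 1 := by rw [← map_mul, mul_inv_cancel, map_one]
  simp only [lam, map_mul]
  linear_combination (norm := noncomm_ring) h1

/-- conjugate subgroup -/
def cj (h : G) (A : Subgroup G) : Subgroup G := A.map (MulAut.conj h).toMonoidHom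

theorem mem_cj {h x : G} {A : Subgroup G} : x ∈ cj h A ↔ ∃ a ∈ A, h * a * h⁻¹ = x := Iff.rfl

theorem Q.cj {A : Subgroup G} (hq : Q ρ A) (h : G) : Q ρ (cj h A) := by
  rintro _ ⟨a, ha, rfl⟩ _ ⟨a', ha', rfl⟩
  show lam ρ (h * a * h⁻¹) * lam ρ (h * a' * h⁻¹) = 0
  have h1 : ρ h⁻¹ * ρ h = 1 := by rw [← map_mul, inv_mul_cancel, map_one]
  rw [lam_conj, lam_conj]
  linear_combination (norm := noncomm_ring) ρ h * lam ρ a * h1 * lam ρ a' * ρ h⁻¹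
    + ρ h * hq a ha a' ha' * ρ h⁻¹

theorem cm_l {A : Subgroup G} {a c : G} (ha : a ∈ A) (hc : c ∈ Subgroup.normalizer (A : Set G)) :
    ⁅a, c⁆ ∈ A := by
  have := A.mul_mem ha ((Subgroup.mem_normalizer_iff.1 hc _).1 (A.inv_mem ha))
  rw [commutatorElement_def]
  convert this using 1; group

theorem cm_r {A : Subgroup G} {a c : G} (ha : a ∈ A) (hc : c ∈ Subgroup.normalizer (A : Set G)) :
    ⁅c, a⁆ ∈ A := by
  rw [← commutatorElement_inv]; exact A.inv_mem (cm_l ha hc)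

theorem lam_cm {A B : Subgroup G} (hA : Q ρ A) (hB : Q ρ B) {a b : G} (ha : a ∈ A) (hb : b ∈ B)
    (h1 : ⁅a, b⁆ ∈ A) (h2 : ⁅a, b⁆ ∈ B) :
    lam ρ ⁅a, b⁆ = lam ρ a * lam ρ b - lam ρ b * lam ρ a := by
  have e : a * b = ⁅a, b⁆ * b * a := by rw [commutatorElement_def]; group
  have e2 := congrArg (lam ρ) e
  rw [lam_mul, lam_mul, lam_mul] at e2
  linear_combination (norm := noncomm_ring) - e2 - hB _ h2 _ hb - hA _ h1 _ ha
    - hB _ h2 _ hb * lam ρ a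

theorem tri {A B K : Subgroup G} (hA : Q ρ A) (hB : Q ρ B) (kA : A ≤ K) (kB : B ≤ K)
    (nA : K ≤ Subgroup.normalizer (A : Set G)) (nB : K ≤ Subgroup.normalizer (B : Set G))
    {a b a' : G} (ha : a ∈ A) (hb : b ∈ B) (ha' : a' ∈ A) :
    lam ρ a * lam ρ b * lam ρ a' = 0 := by
  have h1 : ⁅a', b⁆ ∈ A := cm_l ha' (nA (kB hb))
  have h2 : ⁅a', b⁆ ∈ B := cm_r hb (nB (kA ha'))
  have e := hA a ha _ h1
  rw [lam_cm hA hB ha' hb h1 h2] at e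
  linear_combination (norm := noncomm_ring) hA a ha a' ha' * lam ρ b - e

/-- the element realizing a square-zero sum -/
def gg (k : ℕ) (a0 a1 a2 : G) : G :=
  (a0 * ⁅a0, a1⁆ ^ k * ⁅a0, a2⁆ ^ k) * (a1 * ⁅a1, a2⁆ ^ k) * a2

theorem two_d {k : ℕ} (hp : ((2 * k + 1 : ℕ) : R) = 0) (c : R) : k • c + k • c = -c := by
  have h := half hp c
  rw [add_smul, one_smul, two_mul, add_smul] at h
  exact eq_neg_of_add_eq_zero_left h

theorem lam_gg {k : ℕ} (hp : ((2 * k + 1 : ℕ) : R) = 0) {A0 A1 A2 K : Subgroup G}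
    (q0 : Q ρ A0) (q1 : Q ρ A1) (q2 : Q ρ A2) (k0 : A0 ≤ K) (k1 : A1 ≤ K) (k2 : A2 ≤ K)
    (n0 : K ≤ Subgroup.normalizer (A0 : Set G)) (n1 : K ≤ Subgroup.normalizer (A1 : Set G))
    (n2 : K ≤ Subgroup.normalizer (A2 : Set G)) {a0 a1 a2 : G} (h0 : a0 ∈ A0) (h1 : a1 ∈ A1)
    (h2 : a2 ∈ A2)
    (hg : (lam ρ a0 + lam ρ a1 + lam ρ a2) * (lam ρ a0 + lam ρ a1 + lam ρ a2) = 0) :
    lam ρ (gg k a0 a1 a2) = lam ρ a0 + lam ρ a1 + lam ρ a2 := by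
  have c01 : ⁅a0, a1⁆ ∈ A0 := cm_l h0 (n0 (k1 h1))
  have c01' : ⁅a0, a1⁆ ∈ A1 := cm_r h1 (n1 (k0 h0))
  have c02 : ⁅a0, a2⁆ ∈ A0 := cm_l h0 (n0 (k2 h2))
  have c02' : ⁅a0, a2⁆ ∈ A2 := cm_r h2 (n2 (k0 h0))
  have c12 : ⁅a1, a2⁆ ∈ A1 := cm_l h1 (n1 (k2 h2))
  have c12' : ⁅a1, a2⁆ ∈ A2 := cm_r h2 (n2 (k1 h1))
  have e := fac_ring hp (lam ρ a0) (lam ρ a1) (lam ρ a2) (lam ρ (⁅a0, a1⁆ ^ k))
    (lam ρ (⁅a0, a2⁆ ^ k)) (lam ρ (⁅a1, a2⁆ ^ k)) (q0 _ h0 _ h0) (q1 _ h1 _ h1) (q2 _ h2 _ h2)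
    (tri q0 q1 k0 k1 n0 n1 h0 h1 h0) (tri q0 q2 k0 k2 n0 n2 h0 h2 h0)
    (tri q1 q0 k1 k0 n1 n0 h1 h0 h1) (tri q1 q2 k1 k2 n1 n2 h1 h2 h1)
    (tri q2 q0 k2 k0 n2 n0 h2 h0 h2) (tri q2 q1 k2 k1 n2 n1 h2 h1 h2)
    (by rw [lam_pow q0 c01, two_d hp, lam_cm q0 q1 h0 h1 c01 c01'])
    (by rw [lam_pow q0 c02, two_d hp, lam_cm q0 q2 h0 h2 c02 c02'])
    (by rw [lam_pow q1 c12, two_d hp, lam_cm q1 q2 h1 h2 c12 c12'])
    (q1 _ (A1.pow_mem c01' k) _ h1) (q1 _ (A1.pow_mem c01' k) _ (A1.pow_mem c12 k))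
    (q2 _ (A2.pow_mem c02' k) _ (A2.pow_mem c12' k)) (q2 _ (A2.pow_mem c02' k) _ h2)
    (q2 _ (A2.pow_mem c12' k) _ h2) (tri q2 q1 k2 k1 n2 n1 (A2.pow_mem c02' k) h1 h2) hg
  have f0 : ρ (a0 * ⁅a0, a1⁆ ^ k * ⁅a0, a2⁆ ^ k) =
      1 + (lam ρ a0 + lam ρ (⁅a0, a1⁆ ^ k) + lam ρ (⁅a0, a2⁆ ^ k)) := by
    rw [rho_eq, lam_mul' (q0 _ (A0.mul_mem h0 (A0.pow_mem c01 k)) _ (A0.pow_mem c02 k)),
      lam_mul' (q0 _ h0 _ (A0.pow_mem c01 k))]
  have f1 : ρ (a1 * ⁅a1, a2⁆ ^ k) = 1 + (lam ρ a1 + lam ρ (⁅a1, a2⁆ ^ k)) := by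
    rw [rho_eq, lam_mul' (q1 _ h1 _ (A1.pow_mem c12 k))]
  rw [lam, gg, map_mul, map_mul, f0, f1, rho_eq a2, e]
  abel

theorem gg_mod {k : ℕ} {H N : Subgroup G} [N.Normal] (hN : ∀ x ∈ H, ∀ g, ⁅x, g⁆ ∈ N)
    {a0 a1 a2 : G} (h0 : a0 ∈ H) (h1 : a1 ∈ H) :
    QuotientGroup.mk' N (gg k a0 a1 a2) = QuotientGroup.mk' N (a0 * a1 * a2) := by
  have t : ∀ x ∈ H, ∀ g, QuotientGroup.mk' N ⁅x, g⁆ = 1 := fun x hx g =>
    (QuotientGroup.eq_one_iff _).2 (hN x hx g)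
  simp only [gg, map_mul, map_pow, t a0 h0, t a1 h1, one_pow, mul_one]

theorem cj_mod {H N : Subgroup G} [N.Normal] (hN : ∀ x ∈ H, ∀ g, ⁅x, g⁆ ∈ N)
    {x : G} (hx : x ∈ H) (g : G) :
    QuotientGroup.mk' N (g * x * g⁻¹) = QuotientGroup.mk' N x := by
  have t : QuotientGroup.mk' N ⁅x, g⁆ = 1 := (QuotientGroup.eq_one_iff _).2 (hN x hx g)
  have e : g * x * g⁻¹ = ⁅x, g⁆⁻¹ * x := by rw [commutatorElement_def]; group
  rw [e, map_mul, map_inv, t, inv_one, one_mul]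

/-- the additive group of a quadratic subgroup -/
def AA (A : Subgroup G) (hq : Q ρ A) : AddSubgroup R where
  carrier := {x | ∃ a ∈ A, lam ρ a = x}
  zero_mem' := ⟨1, A.one_mem, lam_one⟩
  add_mem' := by
    rintro _ _ ⟨a, ha, rfl⟩ ⟨a', ha', rfl⟩
    exact ⟨a * a', A.mul_mem ha ha', lam_mul' (hq a ha a' ha')⟩
  neg_mem' := by
    rintro _ ⟨a, ha, rfl⟩
    exact ⟨a⁻¹, A.inv_mem ha, lam_inv (hq a ha a ha)⟩

theorem mem_AA {A : Subgroup G} {hq : Q ρ A} {x : R} : x ∈ AA A hq ↔ ∃ a ∈ A, lam ρ a = x :=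
  Iff.rfl

theorem AA_sq {A : Subgroup G} (hq : Q ρ A) : ∀ x ∈ AA A hq, ∀ y ∈ AA A hq, x * y = 0 := by
  rintro _ ⟨a, ha, rfl⟩ _ ⟨a', ha', rfl⟩
  exact hq a ha a' ha'

theorem card_AA (hρ : Function.Injective ρ) {A : Subgroup G} (hq : Q ρ A) :
    Nat.card (AA A hq) = Nat.card A := by
  symm
  refine Nat.card_congr (Equiv.ofBijective (fun a => ⟨lam ρ a.1, a.1, a.2, rfl⟩) ⟨?_, ?_⟩)
  · intro a a' e
    exact Subtype.ext (lam_inj hρ (congrArg Subtype.val e))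
  · rintro ⟨_, a, ha, rfl⟩
    exact ⟨⟨a, ha⟩, rfl⟩

/-- the subgroup of a square-zero additive subgroup -/
def grp (ρ : G →* R) (L : AddSubgroup R) (hL : ∀ x ∈ L, ∀ y ∈ L, x * y = 0) : Subgroup G where
  carrier := {g | lam ρ g ∈ L}
  one_mem' := by show lam ρ 1 ∈ L; rw [lam_one]; exact L.zero_mem
  mul_mem' := fun {a b} ha hb => by
    show lam ρ (a * b) ∈ L
    rw [lam_mul' (hL _ ha _ hb)]; exact L.add_mem ha hb
  inv_mem' := fun {a} ha => by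
    show lam ρ a⁻¹ ∈ L
    rw [lam_inv (hL _ ha _ ha)]; exact L.neg_mem ha

theorem Q_grp {L : AddSubgroup R} (hL : ∀ x ∈ L, ∀ y ∈ L, x * y = 0) : Q ρ (grp ρ L hL) :=
  fun _ ha _ hb => hL _ ha _ hb

theorem AA_grp {L : AddSubgroup R} (hL : ∀ x ∈ L, ∀ y ∈ L, x * y = 0)
    (hs : ∀ x ∈ L, ∃ g, lam ρ g = x) : AA (grp ρ L hL) (Q_grp hL) = L := by
  ext x
  constructor
  · rintro ⟨a, ha, rfl⟩; exact ha
  · intro hx
    obtain ⟨g, rfl⟩ := hs x hx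
    exact ⟨g, hx, rfl⟩

/-- weak closure step -/
theorem exists_b [Finite G] [Group.IsNilpotent G] (A : Subgroup G)
    (h : ¬ ∀ h : G, cj h A ≤ Subgroup.normalizer (A : Set G)) :
    ∃ K : Subgroup G, ∃ h b : G, A ≤ K ∧ K ≤ Subgroup.normalizer (A : Set G) ∧ b ∈ cj h A ∧
      b ∈ Subgroup.normalizer (K : Set G) ∧ b ∉ Subgroup.normalizer (A : Set G) := by
  let K : Subgroup G := ⨆ h : {h : G // cj h A ≤ Subgroup.normalizer (A : Set G)}, cj h.1 A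
  have hK : K ≤ Subgroup.normalizer (A : Set G) := iSup_le fun h => h.2
  have hin : ∀ h : G, cj h A ≤ Subgroup.normalizer (A : Set G) → cj h A ≤ K := fun h hh =>
    le_iSup (fun h : {h : G // cj h A ≤ Subgroup.normalizer (A : Set G)} => cj h.1 A) ⟨h, hh⟩
  have hA : A ≤ K := by
    refine le_trans ?_ (hin 1 ?_)
    · intro a ha; exact ⟨a, ha, by simp⟩
    · rintro _ ⟨a, ha, rfl⟩
      exact Subgroup.le_normalizer (by simpa using ha)
  by_contra hc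
  push Not at hc
  have h1 : ∀ h : G, cj h A ≤ Subgroup.normalizer (K : Set G) →
      cj h A ≤ Subgroup.normalizer (A : Set G) := fun h hh b hb => hc K h b hA hK hb (hh hb)
  have h2 : Subgroup.normalizer ((Subgroup.normalizer (K : Set G) : Subgroup G) : Set G) ≤
      Subgroup.normalizer (K : Set G) := by
    intro g hg
    have key : ∀ g : G, g ∈ Subgroup.normalizer
        ((Subgroup.normalizer (K : Set G) : Subgroup G) : Set G) → cj g K ≤ K := by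
      intro g hg
      show K.map _ ≤ K
      rw [Subgroup.map_iSup]
      refine iSup_le fun h => le_trans ?_ (hin (g * h.1) (h1 _ ?_))
      · rintro _ ⟨_, ⟨a, ha, rfl⟩, rfl⟩
        exact ⟨a, ha, by simp [mul_assoc]⟩
      · rintro _ ⟨a, ha, rfl⟩
        have := (Subgroup.mem_normalizer_iff.1 hg _).1
          (Subgroup.le_normalizer (hin h.1 h.2 ⟨a, ha, rfl⟩))
        convert this using 1
        simp [mul_assoc]
    rw [Subgroup.mem_normalizer_iff]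
    intro x
    constructor
    · intro hx; exact key g hg ⟨x, hx, rfl⟩
    · intro hx
      have := key g⁻¹ (Subgroup.inv_mem _ hg) ⟨_, hx, rfl⟩
      simpa [mul_assoc] using this
  have h3 : Subgroup.normalizer (K : Set G) = ⊤ := by
    by_contra hne
    have := normalizerCondition_of_isNilpotent (G := G) _ (lt_top_iff_ne_top.2 hne)
    exact absurd h2 (not_le_of_gt this)
  exact h fun g => h1 g (by rw [h3]; exact le_top)

end Cfsg.Lib.Q2S
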