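import Cfsg.Agent.Lib.Q2S.B
import Mathlib.Order.PiLex
import Mathlib.Data.Finite.Defs
import Mathlib.Data.Fintype.Lattice

/-! Existence of a quadratic offender normalized by all its conjugates (odd characteristic). -/

set_option autoImplicit false

namespace Cfsg.Lib.Q2S

open scoped commutatorElement

variable {G R : Type*} [Group G] [Ring R] {ρ : G →* R}

/-- quadratic offender -/
def QO (ρ : G →* R) (V : Type*) [AddCommGroup V] [Module R V] (A : Subgroup G) : Prop :=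
  A ≠ ⊥ ∧ ∃ hq : Q ρ A, Nat.card V ≤ Nat.card A * Nat.card (kr V (AA A hq))

theorem cj_le_norm {A K : Subgroup G} {b : G} (hK : K ≤ Subgroup.normalizer (A : Set G))
    (hb : b ∈ Subgroup.normalizer (K : Set G)) : K ≤ Subgroup.normalizer (cj b A : Set G) := by
  intro x hx
  have hx' : b⁻¹ * x * b ∈ Subgroup.normalizer (A : Set G) := by
    have := (Subgroup.mem_normalizer_iff.1 (Subgroup.inv_mem _ hb) x).1 hx
    rw [inv_inv] at this
    exact hK this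
  rw [Subgroup.mem_normalizer_iff] at hx' ⊢
  intro y
  constructor
  · rintro ⟨a, ha, rfl⟩
    exact ⟨_, (hx' a).1 ha, by simp [mul_assoc]⟩
  · rintro ⟨a, ha, e⟩
    have e' : b * a * b⁻¹ = x * y * x⁻¹ := e
    refine ⟨b⁻¹ * y * b, (hx' _).2 ?_, by simp [mul_assoc]⟩
    have : b⁻¹ * x * b * (b⁻¹ * y * b) * (b⁻¹ * x * b)⁻¹ = a := by
      calc _ = b⁻¹ * (x * y * x⁻¹) * b := by group
        _ = a := by rw [← e']; group
    rw [this]; exact ha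

theorem cj_le {A K : Subgroup G} {b : G} (hA : A ≤ K)
    (hb : b ∈ Subgroup.normalizer (K : Set G)) : cj b A ≤ K := by
  rintro _ ⟨a, ha, rfl⟩
  exact (Subgroup.mem_normalizer_iff.1 hb a).1 (hA ha)

theorem step {k : ℕ} (hp : ((2 * k + 1 : ℕ) : R) = 0) (hρ : Function.Injective ρ)
    {A K : Subgroup G} (hq : Q ρ A) {b : G} (hb : lam ρ b * lam ρ b = 0) (hA : A ≤ K)
    (hK : K ≤ Subgroup.normalizer (A : Set G)) (hbK : b ∈ Subgroup.normalizer (K : Set G))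
    {a x y : G} (ha : a ∈ A) (hx : x ∈ A) (hy : y ∈ A) (γ : R)
    (hγ : γ = lam ρ y + (lam ρ x * lam ρ b - lam ρ b * lam ρ x) - lam ρ b * lam ρ a * lam ρ b)
    (h2 : γ * γ = 0) :
    ∃ g, lam ρ g = γ ∧ ∀ (H N : Subgroup G) [H.Normal] [N.Normal],
      (∀ x ∈ H, ∀ g, ⁅x, g⁆ ∈ N) → a ∈ H → x ∈ H → y = 1 → g ∈ N := by
  have hbK' := Subgroup.inv_mem _ hbK
  have m1 : (x * a) ^ (k + 1) ∈ A := A.pow_mem (A.mul_mem hx ha) _
  have m2 : (a * x⁻¹) ^ (k + 1) ∈ A := A.pow_mem (A.mul_mem ha (A.inv_mem hx)) _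
  have l0 : lam ρ (y * a⁻¹) = lam ρ y - lam ρ a := by
    rw [lam_mul' (hq _ hy _ (A.inv_mem ha)), lam_inv (hq _ ha _ ha), sub_eq_add_neg]
  have l1 : lam ρ ((x * a) ^ (k + 1)) = (k + 1) • lam ρ x + (k + 1) • lam ρ a := by
    rw [lam_pow hq (A.mul_mem hx ha), lam_mul' (hq _ hx _ ha), smul_add]
  have l2 : lam ρ ((a * x⁻¹) ^ (k + 1)) = (k + 1) • lam ρ a - (k + 1) • lam ρ x := by
    rw [lam_pow hq (A.mul_mem ha (A.inv_mem hx)), lam_mul' (hq _ ha _ (A.inv_mem hx)),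
      lam_inv (hq _ hx _ hx), smul_add, smul_neg, sub_eq_add_neg]
  have tw : ∀ c : R, (k + 1) • c + (k + 1) • c = c := fun c => by
    rw [add_smul, one_smul]
    linear_combination (norm := abel) two_d hp c
  have hs : lam ρ (y * a⁻¹) + lam ρ (b⁻¹ * (x * a) ^ (k + 1) * b⁻¹⁻¹)
      + lam ρ (b * (a * x⁻¹) ^ (k + 1) * b⁻¹) = γ := by
    rw [inv_inv, lam_cj1 hb, lam_cj2 hb, l0, l1, l2, hγ]
    have t1 := tw (lam ρ a)
    have t2 := tw (lam ρ x)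
    generalize (k + 1) • lam ρ a = a' at *
    generalize (k + 1) • lam ρ x = x' at *
    linear_combination (norm := noncomm_ring) t1 + t2 * lam ρ b - lam ρ b * t2
      - lam ρ b * t1 * lam ρ b
  refine ⟨gg k (y * a⁻¹) (b⁻¹ * (x * a) ^ (k + 1) * b⁻¹⁻¹) (b * (a * x⁻¹) ^ (k + 1) * b⁻¹), ?_, ?_⟩
  · rw [lam_gg hp hq (hq.cj b⁻¹) (hq.cj b) hA (cj_le hA hbK') (cj_le hA hbK) hK
      (cj_le_norm hK hbK') (cj_le_norm hK hbK) (A.mul_mem hy (A.inv_mem ha))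
      (mem_cj.2 ⟨_, m1, rfl⟩) (mem_cj.2 ⟨_, m2, rfl⟩) (by rw [hs]; exact h2), hs]
  · intro H N hH _ hN haH hxH hy1
    subst hy1
    have n1 : (x * a) ^ (k + 1) ∈ H := H.pow_mem (H.mul_mem hxH haH) _
    have n2 : (a * x⁻¹) ^ (k + 1) ∈ H := H.pow_mem (H.mul_mem haH (H.inv_mem hxH)) _
    rw [← QuotientGroup.eq_one_iff]
    show QuotientGroup.mk' N _ = 1
    rw [gg_mod hN (H.mul_mem H.one_mem (H.inv_mem haH)) (hH.conj_mem _ n1 _), map_mul, map_mul,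
      cj_mod hN n1, cj_mod hN n2, ← map_mul, ← map_mul]
    have : 1 * a⁻¹ * (x * a) ^ (k + 1) * (a * x⁻¹) ^ (k + 1) = 1 := by
      apply lam_inj hρ
      rw [lam_mul' (hq _ (A.mul_mem (A.mul_mem hy (A.inv_mem ha)) m1) _ m2),
        lam_mul' (hq _ (A.mul_mem hy (A.inv_mem ha)) _ m1), l0, l1, l2, lam_one]
      linear_combination (norm := abel) tw (lam ρ a)
    rw [this, map_one]

theorem norm_of_D {k : ℕ} (hp : ((2 * k + 1 : ℕ) : R) = 0) (hρ : Function.Injective ρ)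
    {A : Subgroup G} (hq : Q ρ A) {b : G} (hb : lam ρ b * lam ρ b = 0)
    (h : ∀ a ∈ A, lam ρ a * lam ρ b - lam ρ b * lam ρ a ∈ AA A hq) :
    b ∈ Subgroup.normalizer (A : Set G) := by
  have hE : ∀ a ∈ A, lam ρ b * lam ρ a * lam ρ b ∈ AA A hq := by
    intro a ha
    obtain ⟨c, hc, e⟩ := h a ha
    have h1 := (AA A hq).nsmul_mem (h c hc) k
    rw [e] at h1
    have e2 : (lam ρ a * lam ρ b - lam ρ b * lam ρ a) * lam ρ b -
        lam ρ b * (lam ρ a * lam ρ b - lam ρ b * lam ρ a) =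
        -(lam ρ b * lam ρ a * lam ρ b) + -(lam ρ b * lam ρ a * lam ρ b) := by
      linear_combination (norm := noncomm_ring) lam ρ a * hb + hb * lam ρ a
    rw [e2, smul_add, two_d hp, neg_neg] at h1
    exact h1
  have h1 : ∀ a ∈ A, b * a * b⁻¹ ∈ A := by
    intro a ha
    obtain ⟨c, hc, e⟩ := (AA A hq).sub_mem ((AA A hq).sub_mem ⟨a, ha, rfl⟩ (h a ha)) (hE a ha)
    rw [← lam_cj2 hb] at e
    rw [← lam_inj hρ e]; exact hc
  have h2 : ∀ a ∈ A, b⁻¹ * a * b ∈ A := by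
    intro a ha
    obtain ⟨c, hc, e⟩ := (AA A hq).sub_mem ((AA A hq).add_mem ⟨a, ha, rfl⟩ (h a ha)) (hE a ha)
    rw [← lam_cj1 hb] at e
    rw [← lam_inj hρ e]; exact hc
  rw [Subgroup.mem_normalizer_iff]
  intro x
  refine ⟨h1 x, fun hx => ?_⟩
  have := h2 _ hx
  simpa [mul_assoc] using this

theorem lex_lt {f g : ℕ → ℕ} {i : ℕ} (h1 : ∀ j ≤ i, f j ≤ g j) (h2 : f i < g i) :
    toLex f < toLex g := by
  classical
  have hex : ∃ j, f j ≠ g j := ⟨i, h2.ne⟩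
  refine ⟨Nat.find hex, fun j hj => ?_, ?_⟩
  · have := Nat.find_min hex hj
    simpa using this
  · exact lt_of_le_of_ne (h1 _ (Nat.find_min' hex h2.ne)) (Nat.find_spec hex)

theorem main [Finite G] [Finite R] [Group.IsNilpotent G] {k : ℕ}
    (hp : ((2 * k + 1 : ℕ) : R) = 0) (hρ : Function.Injective ρ)
    (V : Type*) [AddCommGroup V] [Module R V] [Finite V] (A0 : Subgroup G) (h0 : QO ρ V A0) :
    ∃ A : Subgroup G, QO ρ V A ∧ ∀ h : G, cj h A ≤ Subgroup.normalizer (A : Set G) := by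
  classical
  haveI : Nonempty {A : Subgroup G // QO ρ V A} := ⟨⟨A0, h0⟩⟩
  obtain ⟨⟨A, hA⟩, hmax⟩ := Finite.exists_max (fun A : {A : Subgroup G // QO ρ V A} =>
    toLex (fun j : ℕ => Nat.card (A.1 ⊓ Subgroup.upperCentralSeries G j : Subgroup G)))
  refine ⟨A, hA, ?_⟩
  by_contra hc
  obtain ⟨K, h, b, hAK, hK, hbA, hbK, hbN⟩ := exists_b A hc
  obtain ⟨hne, hq, hoff⟩ := hA
  have hb : lam ρ b * lam ρ b = 0 := hq.cj h _ hbA _ hbA
  have hL := LL_sq (AA_sq hq) hb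
  have hs : ∀ γ ∈ LL (AA A hq) (lam ρ b), ∃ g, lam ρ g = γ := by
    intro γ hγ
    obtain ⟨_, ⟨a, ha, rfl⟩, _, ⟨x, hx, rfl⟩, _, ⟨y, hy, rfl⟩, -, e⟩ := mem_LL.1 hγ
    obtain ⟨g, hg, -⟩ := step hp hρ hq hb hAK hK hbK ha hx hy γ e (hL _ hγ _ hγ)
    exact ⟨g, hg⟩
  have hex : ∃ i, ¬ ∀ a ∈ A ⊓ Subgroup.upperCentralSeries G i,
      lam ρ a * lam ρ b - lam ρ b * lam ρ a ∈ AA A hq := by
    obtain ⟨n, hn⟩ := Group.IsNilpotent.nilpotent G
    refine ⟨n, fun hh => hbN (norm_of_D hp hρ hq hb fun a ha => hh a ⟨ha, ?_⟩)⟩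
    rw [hn]; trivial
  have hi := Nat.find_spec hex
  obtain hi0 | ⟨i, hi0⟩ := Nat.eq_zero_or_eq_succ_pred (Nat.find hex) |>.imp id
    (fun h => (⟨_, h⟩ : ∃ i, Nat.find hex = i + 1))
  · apply hi
    rw [hi0]
    intro a ha
    have : a = 1 := by simpa using ha.2
    rw [this, lam_one]; simp
  have hi1 := Nat.find_min hex (m := i) (by omega)
  rw [not_not] at hi1
  rw [hi0] at hi
  push Not at hi
  obtain ⟨α, hα, hD⟩ := hi
  have hN : ∀ x ∈ Subgroup.upperCentralSeries G (i + 1), ∀ g, ⁅x, g⁆ ∈ Subgroup.upperCentralSeries G i :=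
    fun x hx g => Subgroup.mem_upperCentralSeries_succ_iff.1 hx g
  -- the new element
  obtain ⟨g, hgL, hgA, hgZ⟩ : ∃ g, lam ρ g ∈ LL (AA A hq) (lam ρ b) ∧ g ∉ A ∧
      g ∈ Subgroup.upperCentralSeries G i := by
    by_cases hE : -(lam ρ b * lam ρ α * lam ρ b) ∈ AA A hq
    · have hm : lam ρ α * lam ρ b - lam ρ b * lam ρ α ∈ LL (AA A hq) (lam ρ b) :=
        mem_LL.2 ⟨0, zero_mem _, _, ⟨α, hα.1, rfl⟩, 0, zero_mem _, by simpa using hE, by simp⟩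
      obtain ⟨g, hg, hg2⟩ := step hp hρ hq hb hAK hK hbK A.one_mem hα.1 A.one_mem _
        (by simp [lam_one]) (hL _ hm _ hm)
      exact ⟨g, hg ▸ hm, fun h => hD ⟨g, h, hg⟩, hg2 _ _ hN (one_mem _) hα.2 rfl⟩
    · have hm : -(lam ρ b * lam ρ α * lam ρ b) ∈ LL (AA A hq) (lam ρ b) :=
        mem_LL.2 ⟨_, ⟨α, hα.1, rfl⟩, 0, zero_mem _, 0, zero_mem _, by simp, by simp⟩
      obtain ⟨g, hg, hg2⟩ := step hp hρ hq hb hAK hK hbK hα.1 A.one_mem A.one_mem _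
        (by simp [lam_one]) (hL _ hm _ hm)
      exact ⟨g, hg ▸ hm, fun h => hE ⟨g, h, hg⟩, hg2 _ _ hN hα.2 (one_mem _) rfl⟩
  have hB : QO ρ V (grp ρ _ hL) := by
    refine ⟨fun h => hgA ?_, Q_grp hL, ?_⟩
    · have : g ∈ grp ρ _ hL := hgL
      rw [h, Subgroup.mem_bot] at this
      rw [this]; exact A.one_mem
    · rw [← card_AA hρ (Q_grp hL), AA_grp hL hs]
      refine hoff.trans (Nat.mul_le_mul ?_ (card_kr V hb))
      rw [← card_AA hρ hq]; exact card_LL _ _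
  have hle : ∀ j ≤ i, A ⊓ Subgroup.upperCentralSeries G j ≤ grp ρ _ hL ⊓ Subgroup.upperCentralSeries G j := by
    intro j hj y hy
    refine ⟨?_, hy.2⟩
    have := hi1 y ⟨hy.1, Subgroup.upperCentralSeries_mono G hj hy.2⟩
    exact mem_LL.2 ⟨0, zero_mem _, 0, zero_mem _, _, ⟨y, hy.1, rfl⟩, by simpa using this, by simp⟩
  refine absurd (hmax ⟨_, hB⟩) (not_le_of_gt (lex_lt (i := i)
    (fun j hj => Subgroup.card_le_of_le (hle j hj)) ?_))
  refine lt_of_le_of_ne (Subgroup.card_le_of_le (hle i le_rfl)) fun e => hgA ?_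
  have := Subgroup.eq_of_le_of_card_ge (hle i le_rfl) e.ge
  have h3 : g ∈ grp ρ _ hL ⊓ Subgroup.upperCentralSeries G i := ⟨hgL, hgZ⟩
  rw [← this] at h3
  exact h3.1

end Cfsg.Lib.Q2S
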