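import Cfsg.Agent.Lib.Q2S.C
import Mathlib.Algebra.Group.Hom.End
import Mathlib.Algebra.Module.Hom
import Mathlib.GroupTheory.Subgroup.Centralizer

/-! Translation: conjugation action on an abelian subgroup as a ring representation. -/

set_option autoImplicit false

namespace Cfsg.Lib.Q2S

open scoped commutatorElement IsMulCommutative

variable {Ω : Type*} [Group Ω] (V G : Subgroup Ω) [IsMulCommutative V]
  (hGV : G ≤ Subgroup.normalizer (V : Set Ω))

/-- the conjugation representation -/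
def rep : G →* AddMonoid.End (Additive V) where
  toFun g := AddMonoidHom.mk' (fun v => Additive.ofMul
      (⟨g.1 * v.toMul.1 * g.1⁻¹, (Subgroup.mem_normalizer_iff.1 (hGV g.2) _).1 v.toMul.2⟩ : V))
    (fun v w => by
      apply Additive.toMul.injective
      apply Subtype.ext
      simp [mul_assoc])
  map_one' := by
    apply AddMonoidHom.ext
    intro v
    apply Additive.toMul.injective
    apply Subtype.ext
    show (1 : Ω) * v.toMul.1 * 1⁻¹ = v.toMul.1
    group
  map_mul' g h := by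
    apply AddMonoidHom.ext
    intro v
    apply Additive.toMul.injective
    apply Subtype.ext
    show (g.1 * h.1) * v.toMul.1 * (g.1 * h.1)⁻¹ = g.1 * (h.1 * v.toMul.1 * h.1⁻¹) * g.1⁻¹
    group

theorem lam_rep (g : G) (v : Additive V) :
    ((lam (rep V G hGV) g • v).toMul : Ω) = ⁅g.1, v.toMul.1⁆ := by
  rw [lam, sub_smul, one_smul, toMul_sub, commutatorElement_def, div_eq_mul_inv]
  rfl

theorem lam_rep_zero (g : G) (v : Additive V) :
    lam (rep V G hGV) g • v = 0 ↔ ⁅g.1, v.toMul.1⁆ = 1 := by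
  rw [← lam_rep V G hGV]
  constructor
  · intro h; rw [h]; rfl
  · intro h
    apply Additive.toMul.injective
    exact Subtype.ext h

theorem rep_inj (hf : G ⊓ Subgroup.centralizer (V : Set Ω) = ⊥) :
    Function.Injective (rep V G hGV) := by
  rw [injective_iff_map_eq_one]
  intro g hg
  have : g.1 ∈ G ⊓ Subgroup.centralizer (V : Set Ω) := by
    refine ⟨g.2, fun v hv => ?_⟩
    have h := (lam_rep_zero V G hGV g (Additive.ofMul ⟨v, hv⟩)).1 (by rw [lam, hg]; simp)
    exact (commutatorElement_eq_one_iff_mul_comm.1 h).symm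
  rw [hf, Subgroup.mem_bot] at this
  exact Subtype.ext this

theorem Q_iff (A : Subgroup G) :
    Q (rep V G hGV) A ↔ ⁅⁅V, A.map G.subtype⁆, A.map G.subtype⁆ = ⊥ := by
  rw [Subgroup.commutator_eq_bot_iff_le_centralizer, Subgroup.commutator_le]
  constructor
  · rintro hq v hv _ ⟨a, ha, rfl⟩ _ ⟨a', ha', rfl⟩
    have h : (lam (rep V G hGV) a' * lam (rep V G hGV) a) • (Additive.ofMul ⟨v, hv⟩ : Additive V)
        = 0 := by rw [hq a' ha' a ha]; rfl
    rw [mul_smul, lam_rep_zero, lam_rep, commutatorElement_eq_one_iff_commute] at h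
    have h2 := h.inv_right
    rw [commutatorElement_inv] at h2
    exact h2.eq
  · intro h a ha a' ha'
    apply AddMonoidHom.ext
    intro v
    show (lam (rep V G hGV) a * lam (rep V G hGV) a') • v = 0
    rw [mul_smul, lam_rep_zero, lam_rep, commutatorElement_eq_one_iff_commute,
      ← commutatorElement_inv]
    exact Commute.inv_right (h _ v.toMul.2 _ ⟨a', ha', rfl⟩ _ ⟨a, ha, rfl⟩)

theorem card_kr_rep (A : Subgroup G) (hq : Q (rep V G hGV) A) :
    Nat.card (kr (Additive V) (AA A hq)) =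
      Nat.card (V ⊓ Subgroup.centralizer (A.map G.subtype : Set Ω) : Subgroup Ω) := by
  refine Nat.card_congr
    { toFun := fun v => ⟨v.1.toMul.1, v.1.toMul.2, ?_⟩
      invFun := fun v => ⟨Additive.ofMul ⟨v.1, v.2.1⟩, ?_⟩
      left_inv := fun _ => rfl
      right_inv := fun _ => rfl }
  · rintro _ ⟨a, ha, rfl⟩
    exact commutatorElement_eq_one_iff_mul_comm.1
      ((lam_rep_zero V G hGV a v.1).1 (v.2 _ ⟨a, ha, rfl⟩))
  · rintro _ ⟨a, ha, rfl⟩
    exact (lam_rep_zero V G hGV a _).2
      (commutatorElement_eq_one_iff_mul_comm.2 (v.2.2 _ ⟨a, ha, rfl⟩))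

theorem QO_iff (A : Subgroup G) : QO (rep V G hGV) (Additive V) A ↔
    A.map G.subtype ≠ ⊥ ∧ ⁅⁅V, A.map G.subtype⁆, A.map G.subtype⁆ = ⊥ ∧
      Nat.card V ≤ Nat.card (A.map G.subtype) *
        Nat.card (V ⊓ Subgroup.centralizer (A.map G.subtype : Set Ω) : Subgroup Ω) := by
  have hc : Nat.card (A.map G.subtype) = Nat.card A :=
    Subgroup.card_map_of_injective G.subtype_injective
  rw [QO, Ne, Ne, Subgroup.map_eq_bot_iff_of_injective _ G.subtype_injective, ← Q_iff V G hGV, hc]
  refine and_congr Iff.rfl ⟨fun ⟨hq, h⟩ => ⟨hq, ?_⟩, fun ⟨hq, h⟩ => ⟨hq, ?_⟩⟩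
  · rw [← card_kr_rep V G hGV A hq]; exact h
  · rw [card_kr_rep V G hGV A hq]; exact h

omit hGV in
theorem char_End {p : ℕ} (hV : ∀ v ∈ V, v ^ p = 1) : (p : AddMonoid.End (Additive V)) = 0 := by
  apply AddMonoidHom.ext
  intro v
  show p • v = 0
  apply Additive.toMul.injective
  apply Subtype.ext
  exact hV _ v.toMul.2

end Cfsg.Lib.Q2S
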